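import Mathlib
import Cfsg.Agent.Lib.Helper69.APQ.Defs

/-!
# APQ (= S4150), package [RESTR]

Restriction of two elements of `A_m` to the union of their supports.
-/

set_option autoImplicit false

namespace Cfsg.Agent.Lib.Helper83.APQ

open Equiv Cfsg.Agent.Lib.Helper69.APQ

universe u

/-- The union of the supports is stable under the first permutation. -/
theorem restr_inv_left {α : Type u} [Fintype α] [DecidableEq α] (X Y : Perm α) (a : α) :
    X a ∈ X.support ∪ Y.support ↔ a ∈ X.support ∪ Y.support := by
  by_cases ha : X a = a
  · rw [ha]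
  · have h1 : a ∈ X.support := Equiv.Perm.mem_support.2 ha
    have h2 : X a ∈ X.support := Equiv.Perm.apply_mem_support.2 h1
    simp [Finset.mem_union, h1, h2]

/-- The union of the supports is stable under the second permutation. -/
theorem restr_inv_right {α : Type u} [Fintype α] [DecidableEq α] (X Y : Perm α) (a : α) :
    Y a ∈ X.support ∪ Y.support ↔ a ∈ X.support ∪ Y.support := by
  by_cases ha : Y a = a
  · rw [ha]
  · have h1 : a ∈ Y.support := Equiv.Perm.mem_support.2 ha
    have h2 : Y a ∈ Y.support := Equiv.Perm.apply_mem_support.2 h1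
    simp [Finset.mem_union, h1, h2]

theorem pkgRestr : PkgRestr := by
  intro m x y
  classical
  have hX : Equiv.Perm.ofSubtype
      (Equiv.Perm.subtypePerm (x : Perm (Fin m))
        (restr_inv_left (x : Perm (Fin m)) (y : Perm (Fin m)))) = (x : Perm (Fin m)) :=
    Equiv.Perm.ofSubtype_subtypePerm _ (fun a ha =>
      Finset.mem_union_left _ (Equiv.Perm.mem_support.2 ha))
  have hY : Equiv.Perm.ofSubtype
      (Equiv.Perm.subtypePerm (y : Perm (Fin m))
        (restr_inv_right (x : Perm (Fin m)) (y : Perm (Fin m)))) = (y : Perm (Fin m)) :=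
    Equiv.Perm.ofSubtype_subtypePerm _ (fun a ha =>
      Finset.mem_union_right _ (Equiv.Perm.mem_support.2 ha))
  refine ⟨(x : Perm (Fin m)).support ∪ (y : Perm (Fin m)).support,
    Equiv.Perm.subtypePerm (x : Perm (Fin m))
      (restr_inv_left (x : Perm (Fin m)) (y : Perm (Fin m))),
    Equiv.Perm.subtypePerm (y : Perm (Fin m))
      (restr_inv_right (x : Perm (Fin m)) (y : Perm (Fin m))), ?_, ?_, ?_, ?_⟩
  · rw [← Equiv.Perm.cycleType_ofSubtype, hX]
  · rw [← Equiv.Perm.cycleType_ofSubtype, hY]
  · intro b
    have hb := b.2
    rw [Finset.mem_union, Equiv.Perm.mem_support, Equiv.Perm.mem_support] at hb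
    rcases hb with hb | hb
    · left
      intro h
      apply hb
      have := congrArg Subtype.val h
      simpa using this
    · right
      intro h
      apply hb
      have := congrArg Subtype.val h
      simpa using this
  · have hmap : (Subgroup.closure ({x, y} : Set (alternatingGroup (Fin m)))).map
          (alternatingGroup (Fin m)).subtype =
        (Subgroup.closure ({Equiv.Perm.subtypePerm (x : Perm (Fin m))
            (restr_inv_left (x : Perm (Fin m)) (y : Perm (Fin m))),
          Equiv.Perm.subtypePerm (y : Perm (Fin m))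
            (restr_inv_right (x : Perm (Fin m)) (y : Perm (Fin m)))} :
            Set (Perm ↥((x : Perm (Fin m)).support ∪ (y : Perm (Fin m)).support)))).map
          (Equiv.Perm.ofSubtype :
            Perm ↥((x : Perm (Fin m)).support ∪ (y : Perm (Fin m)).support) →* Perm (Fin m)) := by
      rw [MonoidHom.map_closure, MonoidHom.map_closure]
      congr 1
      rw [Set.image_pair, Set.image_pair, hX, hY]
      rfl
    exact ⟨((Subgroup.equivMapOfInjective _ (alternatingGroup (Fin m)).subtype
      (Subgroup.subtype_injective _)).trans (MulEquiv.subgroupCongr hmap)).trans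
      (Subgroup.equivMapOfInjective _ (Equiv.Perm.ofSubtype :
        Perm ↥((x : Perm (Fin m)).support ∪ (y : Perm (Fin m)).support) →* Perm (Fin m))
        Equiv.Perm.ofSubtype_injective).symm⟩

end Cfsg.Agent.Lib.Helper83.APQ
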